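import Cfsg.Agent.H900.PQR.Poly
import Cfsg.Agent.H900.PQR.Emb
import Cfsg.Agent.H562.PQR.GowRoot
import Cfsg.Agent.H371.PslThree
import Cfsg.Agent.H277.ClsPsl
import Cfsg.Agent.H968.TwoCycC
import Cfsg.Agent.S2086
import Cfsg.Agent.S2087
import Cfsg.Agent.S2088

/-!
# The rows `PSL_n(F)`, `n ≥ 3`, of S3988 (helper900)

`row_psl`, `row_psl33`.
-/

set_option autoImplicit false

namespace Cfsg.Agent.H900.PQR

open Matrix Subgroup Cfsg
open Cfsg.Agent.H562.PQR
open Cfsg.Agent.H80.Fpf (MultDvd)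
open Cfsg.Agent.H330 Cfsg.Agent.H330.Gow

section prep

theorem nonab {r : ℕ} (hr : r.Prime) {G : Type*} [Group G] [Finite G] (hG : IsLieTypeChar r G) :
    ∃ x y : G, x * y ≠ y * x := by
  have : Fact r.Prime := ⟨hr⟩
  have hsim : IsSimpleGroup G := H400.LieSimple.isSimple_of_lie hG
  have hS := H716.SplitAb.hasSplitAb_of_lie hr hG
  have hc := H400.LieLocal.center_eq_bot (hasSplit_of_ab hS)
  by_contra h
  push Not at h
  have h1 : center G = ⊤ := by
    rw [eq_top_iff]
    intro x _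
    exact mem_center_iff.2 fun y => h y x
  rw [hc] at h1
  exact bot_ne_top h1

variable {F : Type} [Field F] [Fintype F]

theorem dvd_psl_of_dvd_q {m p : ℕ} (hm : 2 ≤ m) (h : p ∣ Fintype.card F) :
    p ∣ Nat.card (ProjectiveSpecialLinearGroup (Fin m) F) := by
  have hq : 2 ≤ Fintype.card F := Fintype.one_lt_card
  have h1 := Cfsg.Agent.H968.TwoCyc.dvd_card_psl (F := F) rfl m hm hq
  refine h.trans ((dvd_pow_self _ ?_).trans h1)
  intro h2
  have h3 := (Finset.sum_eq_zero_iff.1 h2) ⟨1, by omega⟩ (Finset.mem_univ _)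
  simp at h3

theorem dvd_psl {m p : ℕ} (hm : 2 ≤ m) (hp : p.Prime) (hp2 : 3 ≤ m ∨ p ≠ 2) {k : ℕ} (hk1 : 1 ≤ k) (hkm : k ≤ m)
    (h : p ∣ Fintype.card F ^ k - 1) : p ∣ Nat.card (ProjectiveSpecialLinearGroup (Fin m) F) := by
  have hq : 2 ≤ Fintype.card F := Fintype.one_lt_card
  have hcard := H277.ClsPsl.card_psl (F := F) rfl hm
  set q := Fintype.card F with hqdef
  by_cases hp1 : p ∣ q - 1
  · rcases hp2 with hm3 | hp2
    · have h1 : (q - 1) ^ (m - 1) ∣ ∏ i ∈ Finset.range (m - 1), (q ^ (i + 2) - 1) := by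
        rw [← Finset.card_range (m - 1), ← Finset.prod_const]
        rw [Finset.card_range]
        exact Finset.prod_dvd_prod_of_dvd _ _ fun i _ => Nat.sub_one_dvd_pow_sub_one q (i + 2)
      obtain ⟨s, hs⟩ := h1.mul_left (q ^ (m * (m - 1) / 2))
      obtain ⟨t, ht⟩ := Nat.gcd_dvd_right m (q - 1)
      rw [hs] at hcard
      have hg : 0 < Nat.gcd m (q - 1) := Nat.gcd_pos_of_pos_left _ (by omega)
      have h2 : (q - 1) ^ (m - 1) = Nat.gcd m (q - 1) * (t * (q - 1) ^ (m - 2)) := by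
        rw [← mul_assoc, ← ht, ← pow_succ']
        congr 1
        omega
      rw [h2, mul_assoc] at hcard
      have h3 := Nat.eq_of_mul_eq_mul_left hg hcard
      rw [h3]
      refine Dvd.dvd.mul_right ?_ _
      refine Dvd.dvd.mul_left ?_ _
      exact hp1.trans (dvd_pow_self _ (by omega))
    · by_cases hm3 : 3 ≤ m
      · have h1 : (q - 1) ^ (m - 1) ∣ ∏ i ∈ Finset.range (m - 1), (q ^ (i + 2) - 1) := by
          rw [← Finset.card_range (m - 1), ← Finset.prod_const]
          rw [Finset.card_range]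
          exact Finset.prod_dvd_prod_of_dvd _ _ fun i _ => Nat.sub_one_dvd_pow_sub_one q (i + 2)
        obtain ⟨s, hs⟩ := h1.mul_left (q ^ (m * (m - 1) / 2))
        obtain ⟨t, ht⟩ := Nat.gcd_dvd_right m (q - 1)
        rw [hs] at hcard
        have hg : 0 < Nat.gcd m (q - 1) := Nat.gcd_pos_of_pos_left _ (by omega)
        have h2 : (q - 1) ^ (m - 1) = Nat.gcd m (q - 1) * (t * (q - 1) ^ (m - 2)) := by
          rw [← mul_assoc, ← ht, ← pow_succ']
          congr 1
          omega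
        rw [h2, mul_assoc] at hcard
        have h3 := Nat.eq_of_mul_eq_mul_left hg hcard
        rw [h3]
        refine Dvd.dvd.mul_right ?_ _
        refine Dvd.dvd.mul_left ?_ _
        exact hp1.trans (dvd_pow_self _ (by omega))
      · obtain rfl : m = 2 := by omega
        have h1 : p ∣ Nat.gcd 2 (q - 1) * Nat.card (ProjectiveSpecialLinearGroup (Fin 2) F) := by
          rw [hcard]
          refine Dvd.dvd.mul_left ?_ _
          refine hp1.trans ((Nat.sub_one_dvd_pow_sub_one q 2).trans ?_)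
          simp
        refine ((Nat.Prime.dvd_mul hp).1 h1).resolve_left fun h2 => hp2 ?_
        exact (Nat.prime_dvd_prime_iff_eq hp Nat.prime_two).1 (h2.trans (Nat.gcd_dvd_left _ _))
  · have hk2 : 2 ≤ k := by
      by_contra h2
      obtain rfl : k = 1 := by omega
      rw [pow_one] at h
      exact hp1 h
    have h1 : p ∣ Nat.gcd m (q - 1) * Nat.card (ProjectiveSpecialLinearGroup (Fin m) F) := by
      rw [hcard]
      refine Dvd.dvd.mul_left ?_ _
      refine Dvd.dvd.trans ?_ (Finset.dvd_prod_of_mem (fun i => q ^ (i + 2) - 1) (Finset.mem_range.2 (show k - 2 < m - 1 by omega)))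
      rw [show k - 2 + 2 = k by omega]
      exact h
    exact ((Nat.Prime.dvd_mul hp).1 h1).resolve_left fun h2 => hp1 (h2.trans (Nat.gcd_dvd_right _ _))

/-- the multiplier -/
theorem exists_mult {n : ℕ} (hn : n.Prime) (hn3 : 3 ≤ n) :
    ∃ m, MultDvd (ProjectiveSpecialLinearGroup (Fin n) F) m ∧
      ∀ s : ℕ, s.Prime → s ∣ m → s = 2 ∨ (s = n ∧ s ∣ Fintype.card F - 1) := by
  by_cases h1 : n = 3 ∧ Fintype.card F = 2
  · obtain ⟨rfl, h2⟩ := h1
    refine ⟨2, H80.Fpf.multDvd_of_cyclic (by norm_num) (Cfsg.Agent.S2087.result h2), fun s hs hd => Or.inl ?_⟩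
    exact (Nat.prime_dvd_prime_iff_eq hs Nat.prime_two).1 hd
  by_cases h2 : n = 3 ∧ Fintype.card F = 4
  · obtain ⟨rfl, h4⟩ := h2
    refine ⟨_, H80.Fpf.multDvd_of (Cfsg.Agent.S2088.result h4), fun s hs hd => ?_⟩
    have h5 : Nat.card (Multiplicative (ZMod 3 × ZMod 4 × ZMod 4)) = 48 := by
      rw [Nat.card_congr Multiplicative.toAdd, Nat.card_prod, Nat.card_prod, Nat.card_zmod, Nat.card_zmod]
    rw [h5, show (48 : ℕ) = 2 ^ 4 * 3 by norm_num] at hd
    rcases (Nat.Prime.dvd_mul hs).1 hd with h6 | h6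
    · exact Or.inl ((Nat.prime_dvd_prime_iff_eq hs Nat.prime_two).1 (hs.dvd_of_dvd_pow h6))
    · right
      have h7 := (Nat.prime_dvd_prime_iff_eq hs Nat.prime_three).1 h6
      refine ⟨h7, ?_⟩
      rw [h7, h4]
  · have h3 : Nat.gcd n (Fintype.card F - 1) ≠ 0 := (Nat.gcd_pos_of_pos_left _ (by omega)).ne'
    refine ⟨_, H80.Fpf.multDvd_of_cyclic h3 (Cfsg.Agent.S2086.result (F := F) rfl n (by omega) (by omega) ?_),
      fun s hs hd => Or.inr ⟨?_, hd.trans (Nat.gcd_dvd_right _ _)⟩⟩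
    · simp only [Set.mem_insert_iff, Set.mem_singleton_iff, Prod.mk.injEq, not_or]
      have hn4 : n ≠ 4 := by
        rintro rfl
        exact absurd hn (by norm_num)
      exact ⟨by omega, by omega, h1, h2, by omega⟩
    · exact (Nat.prime_dvd_prime_iff_eq hs hn).1 (hd.trans (Nat.gcd_dvd_left _ _))

end prep

section cases

variable {F : Type} [Field F] [Fintype F] {n : ℕ}

theorem lie {r : ℕ} [CharP F r] (hn : 3 ≤ n) : IsLieTypeChar r (ProjectiveSpecialLinearGroup (Fin n) F) :=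
  Or.inl ⟨F, inferInstance, inferInstance, inferInstance, n, by omega, by omega, ⟨MulEquiv.refl _⟩⟩

theorem ne_char {r p : ℕ} [hr : Fact r.Prime] [CharP F r] (_ : p.Prime)
    (ho : orderOf ((Fintype.card F : ℕ) : ZMod p) = n) (hn : n ≠ 0) : p ≠ r := by
  rintro rfl
  obtain ⟨f, -, hf⟩ := FiniteField.card F p
  rw [hf, Nat.cast_pow, ZMod.natCast_self, zero_pow f.ne_zero] at ho
  have h1 : orderOf (0 : ZMod p) = 0 := by
    rw [orderOf_eq_zero_iff']
    intro k hk h2
    rw [zero_pow hk.ne'] at h2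
    exact zero_ne_one h2
  rw [h1] at ho
  exact hn ho.symm

/-- the irreducible element -/
theorem exists_irr_elt {r p : ℕ} [hr : Fact r.Prime] [CharP F r] (hp : p.Prime) (hn : 2 ≤ n)
    (ho : orderOf ((Fintype.card F : ℕ) : ZMod p) = n) :
    ∃ x : ProjectiveSpecialLinearGroup (Fin n) F, PE p x ∧
      ¬ r ∣ Nat.card (centralizer ({x} : Set (ProjectiveSpecialLinearGroup (Fin n) F))) := by
  have hq : 1 ≤ Fintype.card F := Fintype.card_pos
  have hpr := ne_char (F := F) hp ho (by omega)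
  obtain ⟨g, hg, -, hdeg, hdvd⟩ := exists_irred (F := F) (n := n) hp (by omega) (by rwa [Nat.card_eq_fintype_card])
  have hp1 : ¬ p ∣ Nat.card F - 1 := by
    rw [Nat.card_eq_fintype_card]
    intro h
    have h1 : p ∣ Fintype.card F ^ 1 - 1 := by rwa [pow_one]
    rw [Cfsg.Agent.Lib.Zsigmondy.dvd_pow_sub_one_iff hq, ho] at h1
    have := Nat.le_of_dvd one_pos h1
    omega
  have hpF : (p : F) ≠ 0 := by
    intro h
    rw [CharP.cast_eq_zero_iff F r] at h
    exact hpr ((Nat.prime_dvd_prime_iff_eq hr.out hp).1 h).symm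
  refine exists_reg hn hp hpr (k := 1) hg hdeg (coeff_zero hp hpF hp1 hg hdeg hdvd) ?_
  rwa [pow_one]

/-- from two regular elements to the triple -/
theorem trip_of {r : ℕ} [hr : Fact r.Prime] [CharP F r] (hn : n.Prime) (hn3 : 3 ≤ n) {a b : ℕ} (ha : a.Prime) (hb : b.Prime)
    (hab : a ≠ b) (ha2 : a ≠ 2) (hb2 : b ≠ 2) (hmul : b = n ∨ ¬ n ∣ Fintype.card F - 1)
    {x y : ProjectiveSpecialLinearGroup (Fin n) F} (hx : PE a x) (hy : PE b y)
    (hxc : ¬ r ∣ Nat.card (centralizer ({x} : Set (ProjectiveSpecialLinearGroup (Fin n) F))))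
    (hyc : ¬ r ∣ Nat.card (centralizer ({y} : Set (ProjectiveSpecialLinearGroup (Fin n) F)))) :
    TripABC a b 2 (ProjectiveSpecialLinearGroup (Fin n) F) := by
  have hG : IsLieTypeChar r (ProjectiveSpecialLinearGroup (Fin n) F) := lie hn3
  obtain ⟨m, hm, hm'⟩ := exists_mult (F := F) hn hn3
  have key : ∃ x y z : ProjectiveSpecialLinearGroup (Fin n) F, PE a x ∧ PE b y ∧ PE 2 z ∧ x * y * z = 1 := by
    by_cases h2 : r = 2
    · subst h2
      exact tri_char hr.out hG ha hb hab hx hy hxc hyc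
    · refine tri_reg hr.out hG Nat.prime_two (Ne.symm h2) ?_ hx hy hxc hyc
      refine dvd_psl (F := F) (by omega) Nat.prime_two (Or.inl hn3) le_rfl (by omega) ?_
      rw [pow_one]
      have hodd : ¬ 2 ∣ Fintype.card F := by
        obtain ⟨f, -, hf⟩ := FiniteField.card F r
        rw [hf]
        intro h
        exact h2 ((Nat.prime_dvd_prime_iff_eq Nat.prime_two hr.out).1 (Nat.prime_two.dvd_of_dvd_pow h)).symm
      have : 1 < Fintype.card F := Fintype.one_lt_card
      omega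
  obtain ⟨x', y', z', h1, h2, h3, h4⟩ := key
  refine TripABC.of_mult hm (fun s hs hd => ?_) ha hb Nat.prime_two hab ha2 hb2 h1 h2 h3 h4
  rcases hm' s hs hd with h5 | ⟨h5, h6⟩
  · exact Or.inl h5
  · rcases hmul with h7 | h7
    · exact Or.inr (Or.inr (Or.inl (h5.trans h7.symm)))
    · exact absurd (h5 ▸ h6) h7

open Polynomial in
/-- `n` prime, `n ≠ r`: the triple `(p, n, 2)` -/
theorem case_c {r : ℕ} [hr : Fact r.Prime] [CharP F r] (hn : n.Prime) (hn3 : 3 ≤ n) (hnr : n ≠ r) {p : ℕ}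
    (hp : p.Prime) (ho : orderOf ((Fintype.card F : ℕ) : ZMod p) = n) :
    TripABC p n 2 (ProjectiveSpecialLinearGroup (Fin n) F) := by
  have hpr := ne_char (F := F) hp ho (by omega)
  obtain ⟨x, hx, hxc⟩ := exists_irr_elt (F := F) (r := r) hp (by omega) ho
  have hnodd : Odd n := hn.odd_of_ne_two (by omega)
  have hpn : n + 1 ≤ p := by
    have hpq : ¬ p ∣ Fintype.card F := by
      intro h
      obtain ⟨f, -, hf⟩ := FiniteField.card F r
      rw [hf] at h
      exact hpr ((Nat.prime_dvd_prime_iff_eq hp hr.out).1 (hp.dvd_of_dvd_pow h))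
    have h1 := Cfsg.Agent.Lib.Zsigmondy.orderOf_dvd_pred hp hpq
    rw [ho] at h1
    have := Nat.le_of_dvd (by have := hp.two_le; omega) h1
    omega
  have hf : (X ^ n - 1 : F[X]).Monic := monic_X_pow_sub_C (1 : F) (by omega)
  have hdeg : (X ^ n - 1 : F[X]).natDegree = n := natDegree_X_pow_sub_C
  obtain ⟨y, hy, hyc⟩ := exists_reg (F := F) (n := n) (r := r) (by omega) hn hnr (k := 1) hf hdeg (by
    rw [hnodd.neg_one_pow, coeff_sub, coeff_X_pow, coeff_one]
    simp [show (0 : ℕ) ≠ n by omega]) (by rw [pow_one])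
  exact trip_of hn hn3 hp hn (by omega) (by omega) (by omega) (Or.inl rfl) hx hy hxc hyc

open Polynomial in
/-- `n = r` prime: the triple `(p, b, 2)` -/
theorem case_d [hn : Fact n.Prime] [CharP F n] (hn3 : 3 ≤ n) (h33 : ¬ (n = 3 ∧ Fintype.card F = 3)) {p : ℕ}
    (hp : p.Prime) (hp2 : p ≠ 2) (ho : orderOf ((Fintype.card F : ℕ) : ZMod p) = n) :
    ∃ b, TripABC p b 2 (ProjectiveSpecialLinearGroup (Fin n) F) := by
  have hq : 2 ≤ Fintype.card F := Fintype.one_lt_card
  obtain ⟨f0, -, hf0⟩ := FiniteField.card F n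
  obtain ⟨b, hb, hob⟩ := Cfsg.Agent.Lib.Zsigmondy.exists_prime_orderOf (a := Fintype.card F) (n := n - 1) hq (by omega)
    (by
      intro h1
      obtain rfl : n = 3 := by omega
      rintro ⟨k, hk⟩
      have h8 : ∀ i : ℕ, 3 ^ i % 8 = 1 ∨ 3 ^ i % 8 = 3 := by
        intro i
        induction i with
        | zero => left; rfl
        | succ i ih => rw [pow_succ, Nat.mul_mod]; rcases ih with h | h <;> rw [h] <;> simp
      have h2 := h8 (f0 : ℕ)
      rw [← hf0] at h2
      have h3 : k < 3 := by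
        by_contra h3
        obtain ⟨j, rfl⟩ := Nat.exists_eq_add_of_le (not_lt.1 h3)
        rw [pow_add] at hk
        omega
      apply h33
      refine ⟨rfl, ?_⟩
      interval_cases k
      · omega
      · omega
      · omega)
    (by
      rintro ⟨h1, h2⟩
      rw [h1] at hf0
      have h3 : n ∣ 2 := by rw [hf0]; exact dvd_pow_self n f0.ne_zero
      have := Nat.le_of_dvd (by norm_num) h3
      omega)
  have hbr := ne_char (F := F) (r := n) hb hob (by omega)
  have hb1 : ¬ b ∣ Nat.card F - 1 := by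
    rw [Nat.card_eq_fintype_card]
    intro h
    have h1 : b ∣ Fintype.card F ^ 1 - 1 := by rwa [pow_one]
    rw [Cfsg.Agent.Lib.Zsigmondy.dvd_pow_sub_one_iff (by omega), hob] at h1
    have := Nat.le_of_dvd one_pos h1
    omega
  have hb2 : b ≠ 2 := by
    rintro rfl
    apply hb1
    rw [Nat.card_eq_fintype_card, hf0]
    have h1 : Odd (n ^ (f0 : ℕ)) := (hn.out.odd_of_ne_two (by omega)).pow
    exact (Nat.Odd.sub_odd h1 odd_one).two_dvd
  have hbF : (b : F) ≠ 0 := by
    intro h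
    rw [CharP.cast_eq_zero_iff F n] at h
    exact hbr ((Nat.prime_dvd_prime_iff_eq hn.out hb).1 h).symm
  obtain ⟨g, hg, hirr, hdeg, hdvd⟩ := exists_irred (F := F) (n := n - 1) hb (by omega) (by rwa [Nat.card_eq_fintype_card])
  have hc0 := coeff_zero hb hbF hb1 hg hdeg hdvd
  have hcop : IsCoprime g (X - C 1) := by
    rw [hirr.coprime_iff_not_dvd]
    intro h
    have := natDegree_le_of_dvd h (X_sub_C_ne_zero 1)
    rw [hdeg, natDegree_X_sub_C] at this
    omega
  have hXb : (X - C 1 : F[X]) ∣ X ^ b - 1 := by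
    have := sub_dvd_pow_sub_pow (X : F[X]) (C 1) b
    rwa [← C_pow, one_pow, map_one] at this
  obtain ⟨y, hy, hyc⟩ := exists_reg (F := F) (n := n) (r := n) (by omega) hb hbr (k := 1) (f := g * (X - C 1))
    (hg.mul (monic_X_sub_C 1)) (by rw [hg.natDegree_mul (monic_X_sub_C 1), hdeg, natDegree_X_sub_C]; omega) (by
      rw [mul_coeff_zero]
      have h1 : (X - C 1 : F[X]).coeff 0 = -1 := by simp
      rw [h1]
      obtain ⟨m, hm⟩ : ∃ m, n = m + 1 := ⟨n - 1, by omega⟩
      rw [hm, Nat.add_sub_cancel] at hc0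
      rw [hm, pow_succ]
      linear_combination hc0) (by rw [pow_one]; exact hcop.mul_dvd hdvd hXb)
  obtain ⟨x, hx, hxc⟩ := exists_irr_elt (F := F) (r := n) hp (by omega) ho
  refine ⟨b, trip_of hn.out hn3 hp hb ?_ hp2 hb2 (Or.inr ?_) hx hy hxc hyc⟩
  · rintro rfl
    rw [ho] at hob
    omega
  · intro h
    have h1 : n ∣ Fintype.card F := by rw [hf0]; exact dvd_pow_self n f0.ne_zero
    have h2 := (Nat.dvd_sub_iff_right (by omega) h1).1 h
    have := Nat.le_of_dvd one_pos h2
    omega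

open Polynomial in
/-- `PSL_3(3)` -/
theorem case_e (hF : Fintype.card F = 3) : TripABC 13 2 3 (ProjectiveSpecialLinearGroup (Fin 3) F) := by
  have : Fact (Nat.Prime 3) := ⟨Nat.prime_three⟩
  have : CharP F 3 := by
    obtain ⟨p, hp⟩ := CharP.exists F
    have hpr := CharP.char_is_prime F p
    have : Fact p.Prime := ⟨hpr⟩
    obtain ⟨f, -, hf⟩ := FiniteField.card F p
    rw [hF] at hf
    have h1 : p ∣ 3 := by rw [hf]; exact dvd_pow_self p f.ne_zero
    rwa [(Nat.prime_dvd_prime_iff_eq hpr Nat.prime_three).1 h1] at hp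
  have h13 : Nat.Prime 13 := by norm_num
  have ho : orderOf ((Fintype.card F : ℕ) : ZMod 13) = 3 := by
    rw [hF]
    have : Fact (Nat.Prime 3) := ⟨Nat.prime_three⟩
    exact orderOf_eq_prime (by decide) (by decide)
  obtain ⟨x, hx, hxc⟩ := exists_irr_elt (F := F) (n := 3) (r := 3) h13 (by norm_num) ho
  have h3 : (3 : F[X]) = 0 := by
    have h : ((3 : ℕ) : F) = 0 := CharP.cast_eq_zero F 3
    have h1 : (C ((3 : ℕ) : F) : F[X]) = 0 := by rw [h, C_0]
    rw [C_eq_natCast] at h1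
    exact_mod_cast h1
  have hdeg : (X ^ 3 - X ^ 2 - 1 : F[X]).natDegree = 3 := by compute_degree!
  have hmon : (X ^ 3 - X ^ 2 - 1 : F[X]).Monic := by monicity!
  obtain ⟨y, hy, hyc⟩ := exists_reg (F := F) (n := 3) (r := 3) (by norm_num) Nat.prime_two (by norm_num) (k := 3) hmon hdeg (by
    simp [coeff_X_pow, coeff_one]
    norm_num) (by
      refine ⟨X ^ 5 + X ^ 4 + X ^ 3 + 2 * X ^ 2 + 1, ?_⟩
      linear_combination (X ^ 2 + X ^ 4) * h3)
  have hG : IsLieTypeChar 3 (ProjectiveSpecialLinearGroup (Fin 3) F) := lie le_rfl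
  obtain ⟨x', y', z', h1, h2, h4, h5⟩ := tri_char Nat.prime_three hG h13 Nat.prime_two (by norm_num) hx hy hxc hyc
  have hm : MultDvd (ProjectiveSpecialLinearGroup (Fin 3) F) (Nat.gcd 3 (3 - 1)) := by
    refine H80.Fpf.multDvd_of_cyclic (by norm_num) (Cfsg.Agent.S2086.result hF 3 (by norm_num) (by norm_num) ?_)
    simp
  refine TripABC.of_mult hm (fun s hs hd => ?_) h13 Nat.prime_two Nat.prime_three (by norm_num) (by norm_num)
    (by norm_num) h1 h2 h4 h5
  have h6 : Nat.gcd 3 (3 - 1) = 1 := by norm_num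
  rw [h6] at hd
  exact absurd (Nat.dvd_one.1 hd) hs.one_lt.ne'

end cases

section main

variable {F : Type} [Field F] [Fintype F] {n : ℕ}

/-- **`PSL_3(3)`, all primes** -/
theorem row_psl33 {F : Type} [Field F] [Fintype F] (hF : Fintype.card F = 3) :
    Row (ProjectiveSpecialLinearGroup (Fin 3) F) := by
  intro p hp hd
  right
  have h := case_e hF
  have hp' : p = 2 ∨ p = 3 ∨ p = 13 := by
    rcases H371.Psl.dvd_card (F := F) (by norm_num) hp hd with h1 | ⟨k, hk1, hk2, hk⟩
    · rw [Nat.card_eq_fintype_card, hF] at h1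
      exact Or.inr (Or.inl ((Nat.prime_dvd_prime_iff_eq hp Nat.prime_three).1 h1))
    · rw [Nat.card_eq_fintype_card, hF] at hk
      interval_cases k
      · exact Or.inl ((Nat.prime_dvd_prime_iff_eq hp Nat.prime_two).1 (by simpa using hk))
      · left
        have h2 : p ∣ 2 ^ 3 := by simpa using hk
        exact (Nat.prime_dvd_prime_iff_eq hp Nat.prime_two).1 (hp.dvd_of_dvd_pow h2)
      · have h2 : p ∣ 2 * 13 := by simpa using hk
        rcases (Nat.Prime.dvd_mul hp).1 h2 with h3 | h3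
        · exact Or.inl ((Nat.prime_dvd_prime_iff_eq hp Nat.prime_two).1 h3)
        · exact Or.inr (Or.inr ((Nat.prime_dvd_prime_iff_eq hp (by norm_num)).1 h3))
  refine ⟨13, 2, 3, ?_, Or.inr (Or.inl rfl), h⟩
  omega

theorem row_psl32 (hF : Fintype.card F = 2) : RowOdd (ProjectiveSpecialLinearGroup (Fin 3) F) := by
  intro p hp hp2 hd
  right
  have : Fact (Nat.Prime 2) := ⟨Nat.prime_two⟩
  have : CharP F 2 := by
    obtain ⟨p, hp⟩ := CharP.exists F
    have hpr := CharP.char_is_prime F p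
    have : Fact p.Prime := ⟨hpr⟩
    obtain ⟨f, -, hf⟩ := FiniteField.card F p
    rw [hF] at hf
    have h1 : p ∣ 2 := by rw [hf]; exact dvd_pow_self p f.ne_zero
    rwa [(Nat.prime_dvd_prime_iff_eq hpr Nat.prime_two).1 h1] at hp
  have h7 : Nat.Prime 7 := by norm_num
  have ho : orderOf ((Fintype.card F : ℕ) : ZMod 7) = 3 := by
    rw [hF]
    have : Fact (Nat.Prime 3) := ⟨Nat.prime_three⟩
    exact orderOf_eq_prime (by decide) (by decide)
  have h := case_c (F := F) (n := 3) (r := 2) Nat.prime_three le_rfl (by norm_num) h7 ho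
  have hp' : p = 3 ∨ p = 7 := by
    rcases H371.Psl.dvd_card (F := F) (by norm_num) hp hd with h1 | ⟨k, hk1, hk2, hk⟩
    · rw [Nat.card_eq_fintype_card, hF] at h1
      exact absurd ((Nat.prime_dvd_prime_iff_eq hp Nat.prime_two).1 h1) hp2
    · rw [Nat.card_eq_fintype_card, hF] at hk
      interval_cases k
      · have h2 : p ∣ 1 := by simpa using hk
        exact absurd (Nat.dvd_one.1 h2) hp.one_lt.ne'
      · have h2 : p ∣ 3 := by simpa using hk
        exact Or.inl ((Nat.prime_dvd_prime_iff_eq hp Nat.prime_three).1 h2)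
      · have h2 : p ∣ 7 := by simpa using hk
        exact Or.inr ((Nat.prime_dvd_prime_iff_eq hp h7).1 h2)
  refine ⟨7, 3, 2, ?_, Or.inr (Or.inr rfl), h⟩
  omega

/-- **`PSL_n(F)`, `n ≥ 3`** -/
theorem row_psl {n : ℕ} (hn : 3 ≤ n) (F : Type) [Field F] [Fintype F] :
    RowOdd (ProjectiveSpecialLinearGroup (Fin n) F) := by
  by_cases h32 : n = 3 ∧ Fintype.card F = 2
  · obtain ⟨rfl, h2⟩ := h32
    exact row_psl32 h2
  by_cases h33 : n = 3 ∧ Fintype.card F = 3
  · obtain ⟨rfl, h3⟩ := h33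
    exact (row_psl33 h3).odd
  have hq : 2 ≤ Fintype.card F := Fintype.one_lt_card
  obtain ⟨r, hrF⟩ := CharP.exists F
  have hr : Fact r.Prime := ⟨CharP.char_is_prime F r⟩
  intro p hp hp2 hd
  obtain ⟨m, rfl⟩ : ∃ m, n = m + 1 := ⟨n - 1, by omega⟩
  have hG : IsLieTypeChar r (ProjectiveSpecialLinearGroup (Fin m) F) :=
    Or.inl ⟨F, inferInstance, inferInstance, inferInstance, m, by omega, by omega, ⟨MulEquiv.refl _⟩⟩
  have hsim : IsSimpleGroup (ProjectiveSpecialLinearGroup (Fin m) F) := H400.LieSimple.isSimple_of_lie hG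
  by_cases h1 : p ∣ Nat.card (ProjectiveSpecialLinearGroup (Fin m) F)
  · exact Or.inl (notMin_block (by omega) hp (nonab hr.out hG) h1)
  have ho : orderOf ((Fintype.card F : ℕ) : ZMod p) = m + 1 := by
    rcases H371.Psl.dvd_card (F := F) (by omega) hp hd with h2 | ⟨k, hk1, hk2, hk⟩
    · rw [Nat.card_eq_fintype_card] at h2
      exact absurd (dvd_psl_of_dvd_q (by omega) h2) h1
    · rw [Nat.card_eq_fintype_card] at hk
      have h3 := hk
      rw [Cfsg.Agent.Lib.Zsigmondy.dvd_pow_sub_one_iff (by omega)] at h3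
      set e := orderOf ((Fintype.card F : ℕ) : ZMod p) with he
      have he1 : e ≤ k := Nat.le_of_dvd (by omega) h3
      have he0 : 0 < e := Nat.pos_of_dvd_of_pos h3 (by omega)
      by_contra hne
      apply h1
      refine dvd_psl (by omega) hp (Or.inr hp2) (k := e) he0 (by omega) ?_
      rw [Cfsg.Agent.Lib.Zsigmondy.dvd_pow_sub_one_iff (by omega)]
  by_cases hprime : (m + 1).Prime
  · right
    by_cases hnr : m + 1 = r
    · have : CharP F (m + 1) := by rw [hnr]; exact hrF
      have : Fact (m + 1).Prime := ⟨hprime⟩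
      obtain ⟨b, hb⟩ := case_d (F := F) (n := m + 1) (by omega) (by omega) hp hp2 ho
      exact ⟨p, b, 2, Or.inl rfl, Or.inr (Or.inr rfl), hb⟩
    · exact ⟨p, m + 1, 2, Or.inl rfl, Or.inr (Or.inr rfl), case_c (r := r) hprime (by omega) hnr hp ho⟩
  · left
    obtain ⟨k, hk, hk1, hk2⟩ := Nat.exists_dvd_of_not_prime2 (n := m + 1) (by omega) hprime
    obtain ⟨l, hl⟩ := hk
    have hl2 : 2 ≤ l := by
      rcases Nat.lt_or_ge l 2 with h2 | h2
      · interval_cases l <;> omega
      · exact h2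
    obtain ⟨K, _, _, _, hcard, hfin⟩ := H749.exists_ext F l (by omega)
    have : Fintype K := Fintype.ofFinite K
    have hmod : Module.Finite F K := Module.finite_of_finrank_pos (by omega)
    have hK4 : 4 ≤ Fintype.card K := by
      rw [← Nat.card_eq_fintype_card, hcard, Nat.card_eq_fintype_card]
      calc 4 = 2 ^ 2 := by norm_num
        _ ≤ 2 ^ l := Nat.pow_le_pow_right (by norm_num) hl2
        _ ≤ _ := Nat.pow_le_pow_left hq l
    have : CharP K r := charP_of_injective_algebraMap (algebraMap F K).injective r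
    have hGK : IsLieTypeChar r (ProjectiveSpecialLinearGroup (Fin k) K) :=
      Or.inl ⟨K, inferInstance, inferInstance, inferInstance, k, hk1, fun _ => hK4, ⟨MulEquiv.refl _⟩⟩
    have hsK : IsSimpleGroup (ProjectiveSpecialLinearGroup (Fin k) K) := H400.LieSimple.isSimple_of_lie hGK
    refine notMin_res (F := F) (K := K) (k := k) (by rw [hfin, hl, mul_comm]) (by omega) (by omega) hp
      (nonab hr.out hGK) ?_
    refine dvd_psl hk1 hp (Or.inr hp2) (k := k) (by omega) le_rfl ?_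
    rw [← Nat.card_eq_fintype_card, hcard, Nat.card_eq_fintype_card, ← pow_mul, mul_comm, ← hl,
      Cfsg.Agent.Lib.Zsigmondy.dvd_pow_sub_one_iff (by omega), ho]

end main

end Cfsg.Agent.H900.PQR
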